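import Cfsg.Agent.H42.Deg.F4St

/-!
# Harish-Chandra induction from `PB` in `²F₄(q)`: `1` and the Steinberg character of `Sz(q)` (S4899)

`exists_ind` : for an irreducible character `θ` of `L4 ≅ Sz(q)` whose sums over the cosets `b U`, `b` in the Borel
subgroup, are `|U|` (the trivial character, the Steinberg character) there is an irreducible character of `G` of degree
`|G : PB| θ(1)`.
-/

set_option autoImplicit false
set_option linter.unusedSectionVars false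

namespace Cfsg.Agent.H740.Eight.F4B

open Cfsg Cfsg.Agent.Characters
open Cfsg.Agent.SplitTwo Cfsg.Agent.SplitTwo.ZS Cfsg.Agent.TitsThree.RankTwoZ Cfsg.Agent.SplitTwo.RootSysZ
open Cfsg.Agent.KFacts.TwF4 Cfsg.Agent.KFacts.TwF4.Arc Cfsg.Agent.KFacts.TwF4.SylU Cfsg.Agent.KFacts.TwF4.TorEx
open Cfsg.Agent.KFacts.TwF4.Full Cfsg.Agent.KFacts.TwF4.Irr Cfsg.Agent.LieRecognition.RankOneAbstract
open Cfsg.Agent.H42.Deg Cfsg.Agent.H42.Deg.F4 Cfsg.Agent.H42.Deg.F4B Cfsg.Agent.H42.Deg.F4St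
open scoped Pointwise ComplexConjugate

universe u

variable {F : Type*} [Field F] {σ : F →+* F} {G : Type u} [Group G] (S : Full σ G)
variable [Finite F] [Finite G]

/-- the key to irreducibility: a linear character of `T` fixed by `n2` and by an element acting as `k ↦ 2c - k`,
`c = 5, 6, 7`, has order at most `2` -/
theorem sq_eq_one {A : Type*} [Group A] (lam : S.T →* A) {y : G} {c : ℤ} (h2 : 5 ≤ c) (h4 : c ≤ 7)
    (hy : Maps S.R.X y (fun k => ((2 * c : ℤ) : ZMod (2 * 8)) - k))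
    (hn : ∀ t (ht : t ∈ S.T) (ht' : S.n2⁻¹ * t * S.n2 ∈ S.T), lam ⟨_, ht'⟩ = lam ⟨t, ht⟩)
    (hl : ∀ t (ht : t ∈ S.T), lam ⟨_, conj_T S hy ht⟩ = lam ⟨t, ht⟩) (t : S.T) : lam t * lam t = 1 := by
  -- the elements fixing `lam`
  let P : G → Prop := fun g => ∀ t (ht : t ∈ S.T), ∃ ht' : g⁻¹ * t * g ∈ S.T, lam ⟨_, ht'⟩ = lam ⟨t, ht⟩
  have hP : ∀ g h, P g → P h → P (g * h) := by
    intro g h hg hh t ht
    obtain ⟨a1, a2⟩ := hg t ht
    obtain ⟨b1, b2⟩ := hh _ a1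
    have e : (g * h)⁻¹ * t * (g * h) = h⁻¹ * (g⁻¹ * t * g) * h := by group
    have e1 : (g * h)⁻¹ * t * (g * h) ∈ S.T := e ▸ b1
    refine ⟨e1, ?_⟩
    rw [← a2, ← b2]
    congr 1
    exact Subtype.ext e
  have hn1 : Maps S.R.X S.n2 (fun k => ((2 * 4 : ℤ) : ZMod (2 * 8)) - k) :=
    S.n2_maps.congr fun k => by push_cast; ring
  have p1 : P S.n2 := fun t ht => ⟨conj_T S hn1 ht, hn t ht _⟩
  have p2 : P y := fun t ht => ⟨_, hl t ht⟩
  have p3 := hP _ _ p1 p2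
  have p4 := hP _ _ p3 p3
  have p5 := hP _ _ p4 p4
  have m3 : Maps S.R.X (S.n2 * y) (fun k => ((8 - 2 * c : ℤ) : ZMod (2 * 8)) + k) := by
    refine (S.n2_maps.mul hy).congr fun k => ?_
    show (8 : ZMod (2 * 8)) - (((2 * c : ℤ) : ZMod (2 * 8)) - k) = _
    push_cast
    ring
  have m4 : Maps S.R.X (S.n2 * y * (S.n2 * y)) (fun k => ((2 * (8 - 2 * c) : ℤ) : ZMod (2 * 8)) + k) := by
    refine (m3.mul m3).congr fun k => ?_
    show ((8 - 2 * c : ℤ) : ZMod (2 * 8)) + (((8 - 2 * c : ℤ) : ZMod (2 * 8)) + k) = _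
    push_cast
    ring
  have m5 : Maps S.R.X (S.n2 * y * (S.n2 * y) * (S.n2 * y * (S.n2 * y)))
      (fun k => ((4 * (8 - 2 * c) : ℤ) : ZMod (2 * 8)) + k) := by
    refine (m4.mul m4).congr fun k => ?_
    show ((2 * (8 - 2 * c) : ℤ) : ZMod (2 * 8)) + (((2 * (8 - 2 * c) : ℤ) : ZMod (2 * 8)) + k) = _
    push_cast
    ring
  have key : ∀ g, Maps S.R.X g (fun k => ((2 * 4 : ℤ) : ZMod (2 * 8)) + k) → P g → lam t * lam t = 1 := by
    intro g hg hPg
    obtain ⟨a1, a2⟩ := hPg t t.2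
    have e : (⟨_, a1⟩ : S.T) = t⁻¹ := Subtype.ext (inv_of_rot8 S hg t.2)
    rw [e, map_inv] at a2
    nth_rw 1 [← a2]
    exact inv_mul_cancel _
  have e16 : (16 : ZMod (2 * 8)) = 0 := by decide
  have hc : c = 5 ∨ c = 6 ∨ c = 7 := by omega
  rcases hc with rfl | rfl | rfl
  · refine key _ (m5.congr fun k => ?_) p5
    show ((4 * (8 - 2 * 5) : ℤ) : ZMod (2 * 8)) + k = ((2 * 4 : ℤ) : ZMod (2 * 8)) + k
    push_cast
    linear_combination (-1 : ZMod (2 * 8)) * e16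
  · refine key _ (m4.congr fun k => ?_) p4
    show ((2 * (8 - 2 * 6) : ℤ) : ZMod (2 * 8)) + k = ((2 * 4 : ℤ) : ZMod (2 * 8)) + k
    push_cast
    linear_combination (-1 : ZMod (2 * 8)) * e16
  · refine key _ (m5.congr fun k => ?_) p5
    show ((4 * (8 - 2 * 7) : ℤ) : ZMod (2 * 8)) + k = ((2 * 4 : ℤ) : ZMod (2 * 8)) + k
    push_cast
    linear_combination (-2 : ZMod (2 * 8)) * e16

/-- **an irreducible character of degree `|G : PB| θ(1)`** -/
theorem exists_ind (hF : ∃ c : Fˣ, c ≠ 1) {θ : ↥(L4 S) → ℂ} (hθ : IsIrrCharacter ↥(L4 S) θ)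
    (hθs : ∀ b ∈ HB S, ∀ [Fintype (UB S)], ∑ u : UB S, θ (b * u) = (Nat.card (UB S) : ℂ)) :
    ∃ χ : G → ℂ, IsIrrCharacter G χ ∧ charDegree χ = (PB S).index * charDegree θ := by
  classical
  have := Fintype.ofFinite G
  obtain ⟨ζ, z1, hz1⟩ := F4B.exists_zeta S hF
  obtain ⟨πL, hL1, hL2⟩ := exists_proj (L4_le_PB S) (NB_le_PB S) (fun x hx y hy => NB_norm S hx hy)
    (fun x hx hx' => L4_inf_NB S hF hx hx') (fun x hx => PB_form S hx)
  obtain ⟨πZ, hZ1, hZ2⟩ := exists_proj (ZE_le_PB S) (J_le_PB S) (fun x hx y hy => J08_norm S hx hy)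
    (fun x hx hx' => ZE_inf_J S hF hx hx') (fun x hx => PB_form' S hx)
  have hsurj : Function.Surjective πL := fun l => ⟨⟨l, L4_le_PB S l.2⟩, hL1 l l.2⟩
  have hψ := Cfsg.Agent.CharactersDeep.ExtUnique.isIrr_mul_hom (Core.isIrr_comp πL hsurj hθ) (ζ.comp πZ)
  set ψ : ↥(PB S) → ℂ := fun g => (θ ∘ πL) g * (((ζ.comp πZ) g : ℂˣ) : ℂ) with hψdef
  have hψa : ∀ g, ψ g = θ (πL g) * ((ζ (πZ g) : ℂˣ) : ℂ) := fun g => rfl
  -- the values of `ψ`
  have v1 : ψ 1 = θ 1 := by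
    rw [hψdef]
    simp only [Function.comp, map_one, Units.val_one, mul_one]
  have vZ : ∀ (g : G) (hg : g ∈ ZE S) (hg' : g ∈ PB S), ψ ⟨g, hg'⟩ = θ 1 * ((ζ ⟨g, hg⟩ : ℂˣ) : ℂ) := by
    intro g hg hg'
    have a1 : πL ⟨g, hg'⟩ = 1 := hL2 g (Subgroup.mem_sup_left hg)
    have a2 : πZ ⟨g, hg'⟩ = ⟨g, hg⟩ := hZ1 g hg
    show θ (πL ⟨g, hg'⟩) * ((ζ (πZ ⟨g, hg'⟩) : ℂˣ) : ℂ) = _
    rw [a1, a2]
  have hJP : J S.XZ 1 7 ≤ PB S := (J_mono (by norm_num) (by norm_num)).trans (J_le_PB S)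
  have hirr : IsIrrCharacter G (indFun (PB S) ψ) := by
    refine Cfsg.Agent.H53.HC.isIrr_indFun_rep (PB S) hψ fun x hx => ?_
    obtain ⟨a, ha, b, hb, y, hxy, c, hc1, hc4, hy⟩ := F4B.dcoset S hx
    refine ⟨a, ha, b, hb, y, hxy, ?_⟩
    have hyi : Maps S.R.X y⁻¹ (fun k => ((2 * c : ℤ) : ZMod (2 * 8)) - k) := hy.inv fun k => sub_sub_cancel _ k
    rcases eq_or_lt_of_le hc4 with hc | hc
    · -- `c = 8`
      subst hc
      have hinv : ∀ l ∈ ZE S, y⁻¹ * l * y = l⁻¹ := fun l hl => inv_ZE S hy hl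
      refine ⟨ZE S, ZE_le_PB S, fun l hl => by rw [hinv l hl]; exact inv_mem (ZE_le_PB S hl), ?_⟩
      intro _
      have e : ∀ l : ZE S, ψ ⟨l, ZE_le_PB S l.2⟩ * conj (ψ ⟨y⁻¹ * l * y, by
          rw [hinv l l.2]; exact inv_mem (ZE_le_PB S l.2)⟩) =
          (θ 1 * conj (θ 1)) * (((ζ l : ℂˣ) : ℂ) * ((ζ l : ℂˣ) : ℂ)) := by
        intro l
        have e2 : (⟨y⁻¹ * l * y, by rw [hinv l l.2]; exact inv_mem (ZE_le_PB S l.2)⟩ : ↥(PB S)) =
            ⟨((l⁻¹ : ZE S) : G), ZE_le_PB S (l⁻¹ : ZE S).2⟩ := Subtype.ext (hinv l l.2)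
        rw [e2, vZ _ l.2, vZ _ (l⁻¹ : ZE S).2, map_mul]
        have e3 : conj (((ζ ⟨((l⁻¹ : ZE S) : G), (l⁻¹ : ZE S).2⟩ : ℂˣ)) : ℂ) = ((ζ l : ℂˣ) : ℂ) := by
          have := conj_unit ζ l⁻¹
          rw [inv_inv] at this
          exact this
        rw [e3]
        ring
      rw [Finset.sum_congr rfl fun l _ => e l, ← Finset.mul_sum]
      have h0 : ∑ l : ZE S, ((ζ l : ℂˣ) : ℂ) * ((ζ l : ℂˣ) : ℂ) = 0 := by
        refine sum_eq_zero (f := fun l : ZE S => ((ζ l : ℂˣ) : ℂ) * ((ζ l : ℂˣ) : ℂ)) (fun a b => ?_) (z := z1) ?_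
        · simp only [map_mul, Units.val_mul]
          ring
        · intro h
          apply hz1
          apply Units.ext
          rw [Units.val_mul, Units.val_one]
          exact h
      rw [h0, mul_zero]
    · -- `c = 5, 6, 7`
      have hc7 : c ≤ 7 := by omega
      have hJR : J S.XZ (2 * c - 8) 8 ≤ PB S := (J_mono (by omega) le_rfl).trans (J_le_PB S)
      have hRP : S.T ⊔ J S.XZ (2 * c - 8) 8 ≤ PB S := sup_le (T_le_PB S) hJR
      have hcJ : ∀ x ∈ J S.XZ (2 * c - 8) 8, y⁻¹ * x * y ∈ J S.XZ (2 * c - 8) 8 := by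
        intro x hx
        have h1 := S.map_sub hyi hx
        rw [inv_inv] at h1
        exact J_mono (by omega) (by omega) h1
      have hform : ∀ r ∈ S.T ⊔ J S.XZ (2 * c - 8) 8, ∃ t ∈ S.T, ∃ j ∈ J S.XZ (2 * c - 8) 8, r = t * j := fun r hr =>
        mem_sup_of_norm (fun _ ha _ hb => S.T_conj_J ha hb) hr
      have hcR : ∀ r ∈ S.T ⊔ J S.XZ (2 * c - 8) 8, y⁻¹ * r * y ∈ S.T ⊔ J S.XZ (2 * c - 8) 8 := by
        intro r hr
        obtain ⟨t, ht, j, hj, rfl⟩ := hform r hr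
        have e : y⁻¹ * (t * j) * y = (y⁻¹ * t * y) * (y⁻¹ * j * y) := by group
        rw [e]
        exact mul_mem (Subgroup.mem_sup_left (conj_T S hy ht)) (Subgroup.mem_sup_right (hcJ j hj))
      -- the projection to `L4` takes values in the Borel subgroup
      have hπH : ∀ r (hr : r ∈ S.T ⊔ J S.XZ (2 * c - 8) 8), πL ⟨r, hRP hr⟩ ∈ HB S := by
        intro r hr
        obtain ⟨t, ht, j, hj, rfl⟩ := hform r hr
        obtain ⟨s, hs, z, hz, rfl⟩ := F4B.T_split S ht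
        obtain ⟨x, hx, q, hq, rfl⟩ := S.zsys8.split_rl (a := 2 * c - 8) (b := 8) (by omega) (by omega) hj
        have hx1 : x ∈ L4 S := X8_L4 S hx
        have hq2 : q ∈ J S.XZ 1 7 := J_mono (by omega) (by omega) hq
        have e : (⟨s * z * (x * q), hRP hr⟩ : ↥(PB S)) = ⟨s, L4_le_PB S (TE_le_L4 S hs)⟩ *
            ⟨z, NB_le_PB S (Subgroup.mem_sup_left hz)⟩ * (⟨x, L4_le_PB S hx1⟩ * ⟨q, hJP hq2⟩) := rfl
        rw [e, map_mul, map_mul, map_mul, hL1 s (TE_le_L4 S hs), hL2 z (Subgroup.mem_sup_left hz), hL1 x hx1,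
          hL2 q (Subgroup.mem_sup_right hq2), mul_one, mul_one, mem_HB]
        exact mul_mem (Subgroup.mem_sup_left hs) (Subgroup.mem_sup_right hx)
      refine ⟨S.T ⊔ J S.XZ (2 * c - 8) 8, hRP, fun l hl => hRP (hcR l hl), ?_⟩
      intro _
      have := Fintype.ofFinite (UB S)
      have hUc : 0 < Nat.card (UB S) := Nat.card_pos
      -- the linear character
      let lam : ↥(S.T ⊔ J S.XZ (2 * c - 8) 8) →* ℂˣ := (ζ.comp πZ).comp (Subgroup.inclusion hRP)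
      let cy : ↥(S.T ⊔ J S.XZ (2 * c - 8) 8) →* ↥(S.T ⊔ J S.XZ (2 * c - 8) 8) :=
        { toFun := fun r => ⟨y⁻¹ * r * y, hcR r r.2⟩
          map_one' := Subtype.ext (by simp)
          map_mul' := fun r s => Subtype.ext (by
            show y⁻¹ * ((r : G) * s) * y = (y⁻¹ * r * y) * (y⁻¹ * s * y)
            group) }
      have hcya : ∀ r, ((cy r : ↥(S.T ⊔ J S.XZ (2 * c - 8) 8)) : G) = y⁻¹ * r * y := fun r => rfl
      let i : ↥(S.T ⊔ J S.XZ (2 * c - 8) 8) →* ↥(PB S) := Subgroup.inclusion hRP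
      have hlam : ∀ r, ψ (i r) = θ (πL (i r)) * ((lam r : ℂˣ) : ℂ) := fun r => rfl
      show ∑ l : ↥(S.T ⊔ J S.XZ (2 * c - 8) 8), ψ (i l) * conj (ψ (i (cy l))) = 0
      -- the elements of `X_8` and of `X_(2c-8)`
      have hX1R : ∀ u : UB S, ((u : ↥(L4 S)) : G) ∈ S.T ⊔ J S.XZ (2 * c - 8) 8 := fun u =>
        Subgroup.mem_sup_right (mem_J ((mem_UB S).1 u.2) (by omega) le_rfl)
      let f1 : UB S → ↥(S.T ⊔ J S.XZ (2 * c - 8) 8) := fun u => ⟨_, hX1R u⟩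
      have hf1L : ∀ u : UB S, πL (i (f1 u)) = u := fun u => hL1 _ (u : ↥(L4 S)).2
      have hf1Z : ∀ u : UB S, lam (f1 u) = 1 := fun u => by
        show ζ (πZ ⟨((u : ↥(L4 S)) : G), _⟩) = 1
        rw [hZ2 _ (L4_le_J S (u : ↥(L4 S)).2), map_one]
      -- conjugates of elements of `X_8` lie in the kernel
      have hker : ∀ u ∈ S.XZ 8, y⁻¹ * u * y ∈ J S.XZ 1 7 := by
        intro u hu
        have h1 := S.map_sub hyi (mem_J hu le_rfl le_rfl)
        rw [inv_inv] at h1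
        exact J_mono (by omega) (by omega) h1
      have hcyL : ∀ u : UB S, πL (i (cy (f1 u))) = 1 := fun u =>
        hL2 _ (Subgroup.mem_sup_right (hker _ ((mem_UB S).1 u.2)))
      have hcyZ : ∀ u : UB S, lam (cy (f1 u)) = 1 := fun u => by
        show ζ (πZ ⟨y⁻¹ * ((u : ↥(L4 S)) : G) * y, _⟩) = 1
        rw [hZ2 _ (J_mono (by norm_num) (by norm_num) (hker _ ((mem_UB S).1 u.2))), map_one]
      -- elements of `X_(2c-8)`: the other conjugates
      have hback : ∀ u ∈ S.XZ 8, y * u * y⁻¹ ∈ J S.XZ (2 * c - 8) 7 := by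
        intro u hu
        have h1 := S.map_sub hy (mem_J hu le_rfl le_rfl)
        exact J_mono (by omega) (by omega) h1
      let f2 : UB S → ↥(S.T ⊔ J S.XZ (2 * c - 8) 8) := fun u =>
        ⟨y * ((u : ↥(L4 S)) : G) * y⁻¹, Subgroup.mem_sup_right (J_mono le_rfl (by norm_num)
          (hback _ ((mem_UB S).1 u.2)))⟩
      have hf2L : ∀ u : UB S, πL (i (f2 u)) = 1 := fun u =>
        hL2 _ (Subgroup.mem_sup_right (J_mono (by omega) le_rfl (hback _ ((mem_UB S).1 u.2))))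
      have hf2Z : ∀ u : UB S, lam (f2 u) = 1 := fun u => by
        show ζ (πZ ⟨y * ((u : ↥(L4 S)) : G) * y⁻¹, _⟩) = 1
        rw [hZ2 _ (J_mono (by omega) (by norm_num) (hback _ ((mem_UB S).1 u.2))), map_one]
      have hcf2 : ∀ u, cy (f2 u) = f1 u := fun u => Subtype.ext (by
        show y⁻¹ * (y * ((u : ↥(L4 S)) : G) * y⁻¹) * y = ((u : ↥(L4 S)) : G)
        group)
      -- first step
      have s1 := sum_avg f1 hUc (fun r => ψ (i r)) (fun r => conj (ψ (i (cy r)))) (fun r => ((lam r : ℂˣ) : ℂ))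
        (fun r u => by
          show conj (ψ (i (cy (r * f1 u)))) = conj (ψ (i (cy r)))
          congr 1
          rw [hlam, hlam, map_mul cy, map_mul i, map_mul πL, map_mul lam, hcyL, hcyZ, mul_one, mul_one])
        (fun r => by
          have e : ∀ u : UB S, ψ (i (r * f1 u)) = θ (πL (i r) * (u : ↥(L4 S))) * ((lam r : ℂˣ) : ℂ) := by
            intro u
            rw [hlam, map_mul i, map_mul πL, map_mul lam, hf1L, hf1Z, mul_one]
          have e6 : ∑ u : UB S, θ (πL (i r) * (u : ↥(L4 S))) = (Nat.card (UB S) : ℂ) := hθs (πL (i r)) (hπH r r.2)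
          rw [Finset.sum_congr rfl fun u _ => e u, ← Finset.sum_mul, e6])
      rw [s1]
      have s2 := sum_avg f2 hUc (fun r => conj (ψ (i (cy r)))) (fun r => ((lam r : ℂˣ) : ℂ))
        (fun r => conj ((lam (cy r) : ℂˣ) : ℂ))
        (fun r u => by
          simp only [map_mul, hf2Z, mul_one])
        (fun r => by
          have e : ∀ u : UB S, conj (ψ (i (cy (r * f2 u)))) =
              conj (θ (πL (i (cy r)) * (u : ↥(L4 S))) * ((lam (cy r) : ℂˣ) : ℂ)) := by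
            intro u
            rw [map_mul cy, hcf2, hlam, map_mul i, map_mul πL, map_mul lam, hf1L, hf1Z, mul_one]
          have e6 : ∑ u : UB S, θ (πL (i (cy r)) * (u : ↥(L4 S))) = (Nat.card (UB S) : ℂ) :=
            hθs (πL (i (cy r))) (hπH _ (cy r).2)
          rw [Finset.sum_congr rfl fun u _ => e u, ← map_sum, ← Finset.sum_mul, e6, map_mul, Complex.conj_natCast])
      rw [Finset.sum_congr rfl fun r _ => mul_comm _ _, s2]
      -- the final sum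
      have e5 : ∀ r, conj ((lam (cy r) : ℂˣ) : ℂ) * ((lam r : ℂˣ) : ℂ) = (((lam (cy r))⁻¹ * lam r : ℂˣ) : ℂ) := by
        intro r
        have h1 := conj_unit lam (cy r)
        rw [h1, map_inv, Units.val_mul]
      rw [Finset.sum_congr rfl fun r _ => e5 r]
      by_cases hfix : ∀ t (ht : t ∈ S.T), lam (cy ⟨t, Subgroup.mem_sup_left ht⟩) = lam ⟨t, Subgroup.mem_sup_left ht⟩
      · exfalso
        apply hz1
        let lT : S.T →* ℂˣ := lam.comp (Subgroup.inclusion le_sup_left)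
        have h1 := sq_eq_one S lT hc1 hc7 hy (fun t ht ht' => by
          have e : (⟨S.n2⁻¹ * t * S.n2, hRP (Subgroup.mem_sup_left ht')⟩ : ↥(PB S)) =
              (⟨S.n2, n2_mem_PB S⟩ : ↥(PB S))⁻¹ * ⟨t, T_le_PB S ht⟩ * ⟨S.n2, n2_mem_PB S⟩ := rfl
          have h1 : πZ ⟨S.n2, n2_mem_PB S⟩ = 1 := hZ2 _ (L4_le_J S (n2_mem_L4 S))
          have h2 : πZ ⟨S.n2⁻¹ * t * S.n2, hRP (Subgroup.mem_sup_left ht')⟩ = πZ ⟨t, T_le_PB S ht⟩ := by
            rw [e, map_mul, map_mul, map_inv, h1, inv_one, one_mul, mul_one]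
          exact congrArg ζ h2) (fun t ht => hfix t ht)
          ⟨z1, ZE_le_T S z1.2⟩
        have h2 : lT ⟨z1, ZE_le_T S z1.2⟩ = ζ z1 := by
          show ζ (πZ ⟨(z1 : G), _⟩) = ζ z1
          rw [hZ1 _ z1.2]
        rwa [h2] at h1
      · push Not at hfix
        obtain ⟨t, ht, hne⟩ := hfix
        refine sum_eq_zero (f := fun r => (((lam (cy r))⁻¹ * lam r : ℂˣ) : ℂ)) (fun a b => ?_)
          (z := ⟨t, Subgroup.mem_sup_left ht⟩) ?_
        · simp only [map_mul, mul_inv_rev, Units.val_mul]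
          ring
        · intro h
          apply hne
          have h1 : (lam (cy ⟨t, Subgroup.mem_sup_left ht⟩))⁻¹ * lam ⟨t, Subgroup.mem_sup_left ht⟩ = 1 :=
            Units.ext h
          exact inv_mul_eq_one.1 h1
  refine ⟨_, hirr, ?_⟩
  have hd := Cfsg.Agent.Blocks.Basic.irr_one_eq_charDegree hirr
  rw [Cfsg.Agent.H53.HC.indFun_one, v1, Cfsg.Agent.Blocks.Basic.irr_one_eq_charDegree hθ] at hd
  exact_mod_cast hd.symm

end Cfsg.Agent.H740.Eight.F4B
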