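import Cfsg.Agent.H42.Deg.F4Two
import Cfsg.Agent.H664.Eight.Base
import Cfsg.Agent.H740.Eight.F4A
import Cfsg.Agent.H740.Eight.F4B

/-!
# `²F₄(q)`, `q > 2`: at least eight character degrees (S4899)

With `i = |G : PP|`, `j = |G : PB|` the degrees are `1`, `2^e` (Steinberg), `i`, `i q`, `j`, `j q²`, a multiple of
`i (q - 1)` and a multiple of `j (q - 1)`.
-/

set_option autoImplicit false

namespace Cfsg.Agent.H740.Eight.F4

open Cfsg Cfsg.Agent.Characters Cfsg.Agent.SplitTwo Cfsg.Agent.SplitTwo.ZS Cfsg.Agent.TitsThree.RankTwoZ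
open Cfsg.Agent.SplitTwo.RootSysZ Cfsg.Agent.LieRecognition.RankOneAbstract
open Cfsg.Agent.KFacts.TwF4 hiding od
open Cfsg.Agent.H42.Deg Cfsg.Agent.H42.Deg.F4 Cfsg.Agent.H42.Deg.F4Two

universe u

section arith

variable {k n a b i j : ℕ} (hq : k + 1 = 2 ^ n) (hk : 0 < k)
  (hi : (k + 1) * (k + 1 - 1) * (k + 1 + 1) * ((k + 1 - 1) * 2 ^ a) * i = od (k + 1))
  (hj : ((k + 1) * (k + 1)) * (k + 1 - 1) * ((k + 1) * (k + 1) + 1) * ((k + 1 - 1) * 2 ^ b) * j = od (k + 1))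
  (hab : (k + 1) * 2 ^ a = (k + 1) * (k + 1) * 2 ^ b)

include hk hi hj hab in
theorem rel : i * (k + 2) = j * ((k + 1) ^ 2 + 1) := by
  have h1 := eqi hk hi
  have h2 := eqj hk hj
  have h3 : 0 < (k + 1) * 2 ^ a := by positivity
  apply Nat.eq_of_mul_eq_mul_left h3
  calc (k + 1) * 2 ^ a * (i * (k + 2)) = (k + 1) * 2 ^ a * i * (k + 2) := by ring
    _ = (k + 1) ^ 12 * (((k + 1) ^ 3 + 1) * (k + 2) * ((k + 1) ^ 6 + 1)) * ((k + 1) ^ 2 + 1) := by rw [h1]; ring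
    _ = (k + 1) * (k + 1) * 2 ^ b * j * ((k + 1) ^ 2 + 1) := by rw [h2]
    _ = _ := by rw [hab]; ring

/-- a prime divisor of `k = q - 1` does not divide `(k + 1)^e + 1` -/
theorem not_dvd_pow {p : ℕ} (hp : p.Prime) (hp2 : p ≠ 2) (hpk : p ∣ k) (e : ℕ) : ¬ p ∣ (k + 1) ^ e + 1 := by
  intro h
  have h1 : k ∣ (k + 1) ^ e - 1 := by
    have := Nat.sub_dvd_pow_sub_pow (k + 1) 1 e
    rwa [Nat.add_sub_cancel, one_pow] at this
  have h2 : 1 ≤ (k + 1) ^ e := Nat.one_le_pow _ _ (by omega)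
  have h3 : p ∣ ((k + 1) ^ e + 1) - ((k + 1) ^ e - 1) := Nat.dvd_sub h (hpk.trans h1)
  have h4 : ((k + 1) ^ e + 1) - ((k + 1) ^ e - 1) = 2 := by omega
  rw [h4] at h3
  exact hp2 ((Nat.prime_dvd_prime_iff_eq hp Nat.prime_two).1 h3)

theorem not_dvd_q {p : ℕ} (hp : p.Prime) (hpk : p ∣ k) : ¬ p ∣ k + 1 := fun h =>
  hp.one_lt.ne' (Nat.dvd_one.1 ((Nat.dvd_add_right hpk).1 h))

include hk hi in
theorem not_dvd_i {p : ℕ} (hp : p.Prime) (hp2 : p ≠ 2) (hpk : p ∣ k) : ¬ p ∣ i := by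
  intro h
  have h1 : p ∣ (k + 1) ^ 12 * (((k + 1) ^ 3 + 1) * ((k + 1) ^ 2 + 1) * ((k + 1) ^ 6 + 1)) := by
    rw [← eqi hk hi]
    exact h.mul_left _
  rcases hp.dvd_mul.1 h1 with h | h
  · exact not_dvd_q hp hpk (hp.dvd_of_dvd_pow h)
  rcases hp.dvd_mul.1 h with h | h
  · rcases hp.dvd_mul.1 h with h | h
    · exact not_dvd_pow hp hp2 hpk 3 h
    · exact not_dvd_pow hp hp2 hpk 2 h
  · exact not_dvd_pow hp hp2 hpk 6 h

include hk hj in
theorem not_dvd_j {p : ℕ} (hp : p.Prime) (hp2 : p ≠ 2) (hpk : p ∣ k) : ¬ p ∣ j := by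
  intro h
  have h1 : p ∣ (k + 1) ^ 12 * (((k + 1) ^ 3 + 1) * (k + 2) * ((k + 1) ^ 6 + 1)) := by
    rw [← eqj hk hj]
    exact h.mul_left _
  rcases hp.dvd_mul.1 h1 with h | h
  · exact not_dvd_q hp hpk (hp.dvd_of_dvd_pow h)
  rcases hp.dvd_mul.1 h with h | h
  · rcases hp.dvd_mul.1 h with h | h
    · exact not_dvd_pow hp hp2 hpk 3 h
    · have := not_dvd_pow hp hp2 hpk 1
      rw [pow_one] at this
      exact this h
  · exact not_dvd_pow hp hp2 hpk 6 h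

end arith

section card

variable {F : Type*} [Field F] {σ : F →+* F} {G : Type u} [Group G] (S : Full σ G)

/-- `|X_1| |J 2 8| = |X_8| |J 1 7|` -/
theorem card_J [Finite F] [Finite G] :
    Nat.card (S.XZ 1) * Nat.card (J S.XZ 2 8) = Nat.card (S.XZ 8) * Nat.card (J S.XZ 1 7) := by
  have h1 : Nat.card (J S.XZ 1 8) = Nat.card (S.XZ 1) * Nat.card (J S.XZ 2 8) := by
    refine card_of_proj (X_le_J le_rfl (by norm_num)) (J_mono (by norm_num) le_rfl) (fun x hx hx' => ?_)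
      (fun x hx => ?_)
    · exact S.zsys8.inter 1 x hx (J_mono (by norm_num) (by norm_num) hx')
    · exact S.zsys8.split_ll (a := 1) (b := 8) (by norm_num) (by norm_num) hx
  have h2 : Nat.card (J S.XZ 1 8) = Nat.card (S.XZ 8) * Nat.card (J S.XZ 1 7) := by
    refine card_of_proj (X_le_J (by norm_num) le_rfl) (J_mono le_rfl (by norm_num)) (fun x hx hx' => ?_)
      (fun x hx => ?_)
    · exact S.zsys8.inter' (k := 8) hx (J_mono (by norm_num) (by norm_num) hx')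
    · exact S.zsys8.split_rl (a := 1) (b := 8) (by norm_num) (by norm_num) hx
  rw [← h1, ← h2]

end card

/-- the trivial character of a rank one group -/
theorem one_prop {L : Type*} [Group L] {H U : Subgroup L} :
    ∀ b ∈ H, ∀ [Fintype U], ∑ u : U, (1 : L → ℂ) (b * u) = (Nat.card U : ℂ) := by
  intro b _ _
  simp only [Pi.one_apply, Finset.sum_const, Finset.card_univ, nsmul_eq_mul, mul_one, Nat.card_eq_fintype_card]

theorem charDegree_one {L : Type*} [Group L] : charDegree (1 : L → ℂ) = 1 := by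
  unfold charDegree
  simp

/-- membership -/
theorem mem_of_equiv {G : Type*} {H : Type*} [Group G] [Group H] [Finite G] [Finite H] (e : G ≃* H) {χ : H → ℂ}
    (hχ : IsIrrCharacter H χ) : charDegree χ ∈ charDegrees G := by
  obtain ⟨ψ, hψ⟩ := transport e hχ
  exact ⟨ψ, hψ⟩

/-- the degrees -/
theorem exists_all {G : Type*} [Group G] [Finite G] (h : Lie.Iso2F4 G) :
    ∃ (n k a b i j : ℕ) (χ₁ χ₂ : IrrCharacter G), k + 1 = 2 ^ n ∧ 1 < k ∧ Nat.card G = od (k + 1) ∧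
      (k + 1) * (k + 1 - 1) * (k + 1 + 1) * ((k + 1 - 1) * 2 ^ a) * i = od (k + 1) ∧
      ((k + 1) * (k + 1)) * (k + 1 - 1) * ((k + 1) * (k + 1) + 1) * ((k + 1 - 1) * 2 ^ b) * j = od (k + 1) ∧
      (k + 1) * 2 ^ a = (k + 1) * (k + 1) * 2 ^ b ∧
      i * (k + 1 - 1) ∣ charDegree (χ₁ : G → ℂ) ∧ j * (k + 1 - 1) ∣ charDegree (χ₂ : G → ℂ) ∧
      i ∈ charDegrees G ∧ i * (k + 1) ∈ charDegrees G ∧ j ∈ charDegrees G ∧
      j * ((k + 1) * (k + 1)) ∈ charDegrees G := by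
  obtain ⟨K, _, _, m, hm, hK, ⟨e⟩⟩ := h
  have hch := Cfsg.Agent.ChevalleyStructure.TwF4.Twisted.charP_two hK
  have hfin : Finite ↥(Lie.twistedF4 K (2 ^ m)) := Finite.of_equiv G e.toEquiv
  obtain ⟨φ, hφ⟩ := Cfsg.Agent.ChevalleyStructure.TwF4.TwistedFix.exists_rln hK
  have hcard := Cfsg.Agent.S1068.result hK
  set S := Cfsg.Agent.KFacts.TwF4.Inst.full hK hφ with hS
  have hF := exists_unit hm hK
  obtain ⟨χ₁, h₁, d₁⟩ := exists_big S hF
  obtain ⟨χ₂, h₂, d₂⟩ := F4B.exists_big S hF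
  obtain ⟨χ₃, h₃, d₃⟩ := F4St.exists_even S hF
  obtain ⟨χ₄, h₄, d₄⟩ := F4A.exists_ind S hF (θ := 1) Core.isIrr_one one_prop
  obtain ⟨χ₅, h₅, d₅⟩ := Cfsg.Agent.H740.Eight.F4B.exists_ind S hF (θ := 1) Core.isIrr_one one_prop
  obtain ⟨θ, hθ, hθ1, hθs⟩ := F4St.exists_st (F4B.data S hF)
  obtain ⟨χ₆, h₆, d₆⟩ := Cfsg.Agent.H740.Eight.F4B.exists_ind S hF hθ hθs
  have hθd : charDegree θ = Nat.card K * Nat.card K := by
    rw [F4B.card_UB] at hθ1
    have h7 := Cfsg.Agent.Blocks.Basic.irr_one_eq_charDegree hθ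
    rw [hθ1] at h7
    exact_mod_cast h7.symm
  rw [charDegree_one, mul_one] at d₄ d₅
  rw [hθd] at d₆
  have hPG := Cfsg.Agent.KFacts.TwF4.Perf.two_J S (show S.R.p = 2 from rfl) (a := 2) (b := 8) (by norm_num)
  obtain ⟨a, ha⟩ := (IsPGroup.iff_card (p := 2)).1 hPG
  have hPG' := Cfsg.Agent.KFacts.TwF4.Perf.two_J S (show S.R.p = 2 from rfl) (a := 1) (b := 7) (by norm_num)
  obtain ⟨b, hb⟩ := (IsPGroup.iff_card (p := 2)).1 hPG'
  have e1 := (PP S).card_mul_index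
  have e2 := (F4B.PB S).card_mul_index
  have e3 := card_J S
  rw [card_X1, F4B.card_X8, ha, hb] at e3
  have hq : Nat.card K = 2 ^ (2 * m + 1) := by rw [Nat.card_eq_fintype_card, hK]
  have hq2 : 8 ≤ 2 ^ (2 * m + 1) := by
    calc 8 = 2 ^ 3 := rfl
      _ ≤ _ := Nat.pow_le_pow_right (by norm_num) (by omega)
  rw [card_PP S hF, card_units, hq, ha, hcard] at e1
  rw [F4B.card_PB S hF, card_units, hq, hb, hcard] at e2
  rw [hq] at d₁ d₂ d₃ d₆ e3
  obtain ⟨k, hk⟩ : ∃ k, k + 1 = 2 ^ (2 * m + 1) := ⟨2 ^ (2 * m + 1) - 1, by omega⟩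
  rw [← hk] at d₁ d₂ d₃ d₆ e1 e2 e3
  obtain ⟨ψ₁, g₁⟩ := transport e h₁
  obtain ⟨ψ₂, g₂⟩ := transport e h₂
  refine ⟨2 * m + 1, k, a, b, (PP S).index, (F4B.PB S).index, ψ₁, ψ₂, hk, by omega, ?_, e1, e2, e3, ?_, ?_, ?_, ?_,
    ?_, ?_⟩
  · rw [Nat.card_congr e.toEquiv, hcard, ← hk]
    rfl
  · rw [g₁]; exact d₁
  · rw [g₂]; exact d₂
  · rw [← d₄]; exact mem_of_equiv e h₄
  · rw [← d₃]; exact mem_of_equiv e h₃
  · rw [← d₅]; exact mem_of_equiv e h₅
  · rw [← d₆]; exact mem_of_equiv e h₆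

open Cfsg.Agent.H664.Eight

/-- **`²F₄(q)`, `q > 2`, has at least eight character degrees.** -/
theorem eight_tf4 {S : Type u} [Group S] [Finite S] (h : Lie.Iso2F4 S) : Eight S := by
  obtain ⟨n, k, a, b, i, j, χ₁, χ₂, hq, hk, hc, hi, hj, hab, d₁, d₂, m₁, m₂, m₃, m₄⟩ := exists_all h
  have hk0 : 0 < k := by omega
  have f2 := Fact.mk Nat.prime_two
  -- the Steinberg character
  obtain ⟨χ, hχ, hst⟩ := H163.Steinberg.exists_irr_of_hasSplit (hasSplit h)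
  have Q : Sylow 2 S := default
  have k1 := Cfsg.Agent.Blocks.Basic.irr_one_eq_charDegree hχ
  rw [(hst Q).1] at k1
  have k2 : Nat.card Q = charDegree χ := by exact_mod_cast k1
  obtain ⟨e, he⟩ := (IsPGroup.iff_card (p := 2)).1 Q.2
  have mst : 2 ^ e ∈ charDegrees S := ⟨⟨χ, hχ⟩, by rw [← he, k2]⟩
  have h2c : 2 ∣ Nat.card S := by
    rw [hc]
    unfold od
    obtain ⟨r, hr⟩ := even_q hq hk0
    exact ((((dvd_pow (⟨r, hr⟩ : 2 ∣ k + 1) (by norm_num)).mul_right _).mul_right _).mul_right _).mul_right _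
  have he0 : 1 < 2 ^ e := by
    rw [← he]
    exact (Nat.Prime.one_lt Nat.prime_two).trans_le (Nat.le_of_dvd Nat.card_pos (Q.dvd_card_of_dvd_card h2c))
  -- positivity
  have hod : 0 < od (k + 1) := by rw [← hc]; exact Nat.card_pos
  have hi0 : 0 < i := Nat.pos_of_ne_zero (by rintro rfl; rw [mul_zero] at hi; omega)
  have hj0 : 0 < j := Nat.pos_of_ne_zero (by rintro rfl; rw [mul_zero] at hj; omega)
  have hrel := rel hk0 hi hj hab
  -- an odd divisor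
  set c := (k + 1) ^ 6 + 1 with hcdef
  have c1 : 1 < c := by
    have : 0 < (k + 1) ^ 6 := by positivity
    omega
  have c2 : Nat.Coprime 2 c := cop hq hk0 5
  have ci : c ∣ i := (Dvd.intro_left _ rfl).trans (dvd_i hq hk0 hi)
  have cj : c ∣ j := (Dvd.intro_left _ rfl).trans (dvd_j hq hk0 hj)
  have cd1 : c ∣ charDegree (χ₁ : S → ℂ) := (ci.mul_right _).trans d₁
  have cd2 : c ∣ charDegree (χ₂ : S → ℂ) := (cj.mul_right _).trans d₂
  have hn1 : ∀ x, c ∣ x → x ≠ 1 := fun x hx h1 => by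
    rw [h1] at hx
    exact c1.ne' (Nat.dvd_one.1 hx)
  have hn2 : ∀ x, c ∣ x → x ≠ 2 ^ e := fun x hx h1 => by
    rw [h1] at hx
    exact c1.ne' ((Nat.Coprime.pow_left e c2).symm.eq_one_of_dvd hx)
  -- a prime divisor of `q - 1`
  obtain ⟨p, hp, hpk⟩ := Nat.exists_prime_and_dvd hk.ne'
  have hp2 : p ≠ 2 := by
    rintro rfl
    obtain ⟨r, hr⟩ := even_q hq hk0
    omega
  have pi := not_dvd_i hk0 hi hp hp2 hpk
  have pj := not_dvd_j hk0 hj hp hp2 hpk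
  have pq := not_dvd_q (k := k) hp hpk
  have piq : ¬ p ∣ i * (k + 1) := fun h1 => (hp.dvd_mul.1 h1).elim pi pq
  have pjq : ¬ p ∣ j * ((k + 1) * (k + 1)) := fun h1 => (hp.dvd_mul.1 h1).elim pj fun h2 =>
    (hp.dvd_mul.1 h2).elim pq pq
  rw [Nat.add_sub_cancel] at d₁ d₂
  have pd1 : p ∣ charDegree (χ₁ : S → ℂ) := (hpk.mul_left i).trans d₁
  have pd2 : p ∣ charDegree (χ₂ : S → ℂ) := (hpk.mul_left j).trans d₂
  have hnp : ∀ x y, ¬ p ∣ x → p ∣ y → x ≠ y := fun x y h1 h2 h3 => h1 (h3 ▸ h2)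
  have hd12 : charDegree (χ₁ : S → ℂ) ≠ charDegree (χ₂ : S → ℂ) := by
    intro h1
    rw [← h1] at d₂
    refine deg_ne hq hk0 hi hj (by rwa [Nat.add_sub_cancel]) (by rwa [Nat.add_sub_cancel])
      (Cfsg.Agent.Blocks.Basic.charDegree_pos χ₁.2) ?_
    rw [← hc]
    exact sq_le χ₁
  -- the four small ones
  have a1 : i ≠ i * (k + 1) := by
    intro h1
    have : i * 1 = i * (k + 1) := by rw [mul_one]; exact h1
    have := Nat.eq_of_mul_eq_mul_left hi0 this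
    omega
  have a2 : i ≠ j := by
    intro h1
    rw [h1] at hrel
    have := Nat.eq_of_mul_eq_mul_left hj0 hrel
    nlinarith
  have a3 : i ≠ j * ((k + 1) * (k + 1)) := by
    intro h1
    rw [h1] at hrel
    have h3 : (k + 1) * (k + 1) * (k + 2) = (k + 1) ^ 2 + 1 := by
      apply Nat.eq_of_mul_eq_mul_left hj0
      rw [← hrel]; ring
    nlinarith
  have a4 : i * (k + 1) ≠ j := by
    intro h1
    rw [← h1] at hrel
    have h3 : k + 2 = (k + 1) * ((k + 1) ^ 2 + 1) := by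
      apply Nat.eq_of_mul_eq_mul_left hi0
      rw [hrel]; ring
    nlinarith
  have a5 : i * (k + 1) ≠ j * ((k + 1) * (k + 1)) := by
    intro h1
    have h2 : i = j * (k + 1) := by
      apply Nat.eq_of_mul_eq_mul_right (show 0 < k + 1 by omega)
      rw [h1]; ring
    rw [h2] at hrel
    have h3 : (k + 1) * (k + 2) = (k + 1) ^ 2 + 1 := by
      apply Nat.eq_of_mul_eq_mul_left hj0
      rw [← hrel]; ring
    nlinarith
  have a6 : j ≠ j * ((k + 1) * (k + 1)) := by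
    intro h1
    have : j * 1 = j * ((k + 1) * (k + 1)) := by rw [mul_one]; exact h1
    have := Nat.eq_of_mul_eq_mul_left hj0 this
    nlinarith
  refine eight_of_list [1, 2 ^ e, i, i * (k + 1), j, j * ((k + 1) * (k + 1)), charDegree (χ₁ : S → ℂ),
    charDegree (χ₂ : S → ℂ)] ?_ (by simp) ?_
  · have b1 := hn1 i ci
    have b2 := hn1 _ (ci.mul_right (k + 1))
    have b3 := hn1 j cj
    have b4 := hn1 _ (cj.mul_right ((k + 1) * (k + 1)))
    have b5 := hn1 _ cd1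
    have b6 := hn1 _ cd2
    have c1' := hn2 i ci
    have c2' := hn2 _ (ci.mul_right (k + 1))
    have c3' := hn2 j cj
    have c4' := hn2 _ (cj.mul_right ((k + 1) * (k + 1)))
    have c5' := hn2 _ cd1
    have c6' := hn2 _ cd2
    have x1 := hnp _ _ pi pd1
    have x2 := hnp _ _ pi pd2
    have x3 := hnp _ _ piq pd1
    have x4 := hnp _ _ piq pd2
    have x5 := hnp _ _ pj pd1
    have x6 := hnp _ _ pj pd2
    have x7 := hnp _ _ pjq pd1
    have x8 := hnp _ _ pjq pd2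
    simp only [List.nodup_cons, List.mem_cons, List.not_mem_nil, or_false, not_or, List.nodup_nil, and_true,
      not_false_eq_true]
    exact ⟨⟨he0.ne, b1.symm, b2.symm, b3.symm, b4.symm, b5.symm, b6.symm⟩,
      ⟨c1'.symm, c2'.symm, c3'.symm, c4'.symm, c5'.symm, c6'.symm⟩, ⟨a1, a2, a3, x1, x2⟩, ⟨a4, a5, x3, x4⟩,
      ⟨a6, x5, x6⟩, ⟨x7, x8⟩, hd12⟩
  · intro d hd
    simp only [List.mem_cons, List.not_mem_nil, or_false] at hd
    rcases hd with rfl | rfl | rfl | rfl | rfl | rfl | rfl | rfl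
    · exact one_mem
    · exact mst
    · exact m₁
    · exact m₂
    · exact m₃
    · exact m₄
    · exact ⟨χ₁, rfl⟩
    · exact ⟨χ₂, rfl⟩

end Cfsg.Agent.H740.Eight.F4
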